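import Cfsg.Agent.H347.HX.D42.Main

/-!
# Centralizers of elements of order 3 and 7 of `³D₄(2)` (helper595, with the class list of helper347)
-/

set_option autoImplicit false
set_option maxRecDepth 100000
set_option Elab.async false

namespace Cfsg.Agent.H595.EPX.TD42

open Subgroup Cfsg.Agent.H347.HX Cfsg.Agent.H347.HX.D42

theorem pow_ne {w : List ℕ} {k : ℕ} (q : Fin 819) (h : Nat.beq (ap fl (wp w k) q) (ap fl [] q) = false) :
    (ev s w) ^ k ≠ 1 := by
  rw [poww]
  exact ne_of (v := []) q h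

theorem of_three {p : A × Cl} (hp : p ∈ lst) (h1 : p.1 ≠ 1) (hk : p.1 ^ 3 = 1) :
    p = (ev s [4, 0, 4, 0], c3) ∨ p = (ev s [2, 0], c4) := by
  simp only [lst, List.mem_cons, List.not_mem_nil, or_false] at hp
  rcases hp with rfl | rfl | rfl | rfl | rfl | rfl | rfl | rfl | rfl | rfl | rfl | rfl | rfl | rfl | rfl | rfl | rfl | rfl | rfl | rfl | rfl
  · exact absurd rfl h1
  · exact absurd hk (pow_ne 2 (by decide +kernel))
  · exact absurd hk (pow_ne 1 (by decide +kernel))
  · exact Or.inl rfl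
  · exact Or.inr rfl
  · exact absurd hk (pow_ne 1 (by decide +kernel))
  · exact absurd hk (pow_ne 2 (by decide +kernel))
  · exact absurd hk (pow_ne 0 (by decide +kernel))
  · exact absurd hk (pow_ne 0 (by decide +kernel))
  · exact absurd hk (pow_ne 5 (by decide +kernel))
  · exact absurd hk (pow_ne 0 (by decide +kernel))
  · exact absurd hk (pow_ne 3 (by decide +kernel))
  · exact absurd hk (pow_ne 1 (by decide +kernel))
  · exact absurd hk (pow_ne 1 (by decide +kernel))
  · exact absurd hk (pow_ne 1 (by decide +kernel))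
  · exact absurd hk (pow_ne 5 (by decide +kernel))
  · exact absurd hk (pow_ne 0 (by decide +kernel))
  · exact absurd hk (pow_ne 2 (by decide +kernel))
  · exact absurd hk (pow_ne 0 (by decide +kernel))
  · exact absurd hk (pow_ne 0 (by decide +kernel))
  · exact absurd hk (pow_ne 1 (by decide +kernel))

theorem of_seven {p : A × Cl} (hp : p ∈ lst) (h1 : p.1 ≠ 1) (hk : p.1 ^ 7 = 1) :
    p = (ev s [4, 3, 2, 0], c10) ∨ p = (ev s [1, 0], c11) := by
  simp only [lst, List.mem_cons, List.not_mem_nil, or_false] at hp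
  rcases hp with rfl | rfl | rfl | rfl | rfl | rfl | rfl | rfl | rfl | rfl | rfl | rfl | rfl | rfl | rfl | rfl | rfl | rfl | rfl | rfl | rfl
  · exact absurd rfl h1
  · exact absurd hk (pow_ne 2 (by decide +kernel))
  · exact absurd hk (pow_ne 1 (by decide +kernel))
  · exact absurd hk (pow_ne 0 (by decide +kernel))
  · exact absurd hk (pow_ne 1 (by decide +kernel))
  · exact absurd hk (pow_ne 1 (by decide +kernel))
  · exact absurd hk (pow_ne 2 (by decide +kernel))
  · exact absurd hk (pow_ne 0 (by decide +kernel))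
  · exact absurd hk (pow_ne 0 (by decide +kernel))
  · exact absurd hk (pow_ne 1 (by decide +kernel))
  · exact Or.inl rfl
  · exact Or.inr rfl
  · exact absurd hk (pow_ne 1 (by decide +kernel))
  · exact absurd hk (pow_ne 1 (by decide +kernel))
  · exact absurd hk (pow_ne 1 (by decide +kernel))
  · exact absurd hk (pow_ne 1 (by decide +kernel))
  · exact absurd hk (pow_ne 0 (by decide +kernel))
  · exact absurd hk (pow_ne 2 (by decide +kernel))
  · exact absurd hk (pow_ne 0 (by decide +kernel))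
  · exact absurd hk (pow_ne 0 (by decide +kernel))
  · exact absurd hk (pow_ne 5 (by decide +kernel))

theorem bd3 : bd c3.l = 4536 := by decide +kernel
theorem bd4 : bd c4.l = 1944 := by decide +kernel
theorem bd10 : bd c10.l = 147 := by decide +kernel
theorem bd11 : bd c11.l = 1176 := by decide +kernel

theorem cent_le {p : A × Cl} (hp : p ∈ lst) : Nat.card (centralizer ({p.1} : Set A)) ≤ bd p.2.l :=
  card_le (lst_Rp p hp) hbase (lst_run p hp)

theorem card_cent_conj {G : Type*} [Group G] {x y : G} (h : IsConj x y) :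
    Nat.card (centralizer ({x} : Set G)) = Nat.card (centralizer ({y} : Set G)) := by
  obtain ⟨c, rfl⟩ := isConj_iff.1 h
  have h1 : centralizer ({c * x * c⁻¹} : Set G) = (centralizer ({x} : Set G)).map (MulAut.conj c).toMonoidHom := by
    ext z
    rw [mem_centralizer_singleton_iff, Subgroup.mem_map]
    constructor
    · intro hz
      refine ⟨c⁻¹ * z * c, ?_, ?_⟩
      · rw [mem_centralizer_singleton_iff]
        calc c⁻¹ * z * c * x = c⁻¹ * (z * (c * x * c⁻¹)) * c := by group
          _ = c⁻¹ * (c * x * c⁻¹ * z) * c := by rw [hz]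
          _ = x * (c⁻¹ * z * c) := by group
      · show c * (c⁻¹ * z * c) * c⁻¹ = z
        group
    · rintro ⟨w, hw, rfl⟩
      rw [mem_centralizer_singleton_iff] at hw
      show c * w * c⁻¹ * (c * x * c⁻¹) = c * x * c⁻¹ * (c * w * c⁻¹)
      calc c * w * c⁻¹ * (c * x * c⁻¹) = c * (w * x) * c⁻¹ := by group
        _ = c * (x * w) * c⁻¹ := by rw [hw]
        _ = _ := by group
  rw [h1]
  exact Nat.card_congr ((centralizer ({x} : Set G)).equivMapOfInjective _ (MulAut.conj c).injective).toEquiv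

theorem card_cent_sub {x : K} : Nat.card (centralizer ({x} : Set K)) =
    Nat.card (K ⊓ centralizer ({(x : A)} : Set A) : Subgroup A) := by
  refine Nat.card_congr ⟨fun z => ⟨(z : K), (z : K).2, ?_⟩, fun z => ⟨⟨z.1, z.2.1⟩, ?_⟩, fun _ => rfl, fun _ => rfl⟩
  · show ((z : K) : A) ∈ centralizer ({(x : A)} : Set A)
    rw [mem_centralizer_singleton_iff]
    exact congrArg Subtype.val (mem_centralizer_singleton_iff.1 z.2)
  · rw [mem_centralizer_singleton_iff]
    exact Subtype.ext (mem_centralizer_singleton_iff.1 z.2.2)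

theorem σ_comm : σ * ev s [4, 0, 4, 0] = ev s [4, 0, 4, 0] * σ := by
  apply Subtype.ext
  apply Equiv.ext
  intro q
  apply Fin.ext
  have h : (alb 819 fun p => Nat.beq (sf (ap fl [4, 0, 4, 0] p)) (ap fl [4, 0, 4, 0] (sf p))) = true := by decide +kernel
  have h1 : (((σ * ev s [4, 0, 4, 0] : A) : Equiv.Perm (Fin 819)) q : ℕ) = sf (ap fl [4, 0, 4, 0] q) := by
    show (((σ : Equiv.Perm (Fin 819)) (((ev s [4, 0, 4, 0] : A) : Equiv.Perm (Fin 819)) q) : Fin 819) : ℕ) = _
    rw [rp_σ, Rp.ev rp_s]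
  have h2 : (((ev s [4, 0, 4, 0] * σ : A) : Equiv.Perm (Fin 819)) q : ℕ) = ap fl [4, 0, 4, 0] (sf q) := by
    show ((((ev s [4, 0, 4, 0] : A) : Equiv.Perm (Fin 819)) ((σ : Equiv.Perm (Fin 819)) q) : Fin 819) : ℕ) = _
    rw [Rp.ev rp_s, rp_σ]
  rw [h1, h2]
  exact Nat.eq_of_beq_eq_true (of_alb h q q.2)

/-- order 3 -/
theorem cent3 {x : K} (h3 : orderOf x = 3) : Nat.card (centralizer ({x} : Set K)) ≤ 1944 := by
  obtain ⟨p, hp, hc⟩ := classes x.2
  have ho : orderOf p.1 = 3 := by
    obtain ⟨c, hc⟩ := isConj_iff.1 hc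
    have h1 : orderOf ((MulAut.conj c) p.1) = orderOf p.1 := (MulAut.conj c).orderOf_eq p.1
    rw [← h1, MulAut.conj_apply, hc, Subgroup.orderOf_coe, h3]
  have h1 : p.1 ≠ 1 := by
    intro h
    rw [h, orderOf_one] at ho
    omega
  have hk : p.1 ^ 3 = 1 := by rw [← ho, pow_orderOf_eq_one]
  rw [card_cent_sub]
  have hle : Nat.card (K ⊓ centralizer ({(x : A)} : Set A) : Subgroup A) ≤ Nat.card (centralizer ({(x : A)} : Set A)) :=
    Subgroup.card_le_of_le inf_le_right
  rcases of_three hp h1 hk with rfl | rfl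
  · have h2 : Nat.card (centralizer ({(x : A)} : Set A)) ≤ 4536 := by
      rw [← card_cent_conj hc, ← bd3]
      exact cent_le hp
    obtain ⟨g, hg⟩ := isConj_iff.1 hc
    have h4 : g * σ * g⁻¹ ∈ centralizer ({(x : A)} : Set A) := by
      rw [mem_centralizer_singleton_iff, ← hg]
      calc g * σ * g⁻¹ * (g * ev s [4, 0, 4, 0] * g⁻¹) = g * (σ * ev s [4, 0, 4, 0]) * g⁻¹ := by group
        _ = g * (ev s [4, 0, 4, 0] * σ) * g⁻¹ := by rw [σ_comm]
        _ = _ := by group
    have h5 : g * σ * g⁻¹ ∉ K := by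
      intro h
      apply σ_not_mem
      have h6 := normal_K.conj_mem _ h g⁻¹
      have h7 : g⁻¹ * (g * σ * g⁻¹) * g⁻¹⁻¹ = σ := by group
      rwa [h7] at h6
    have hn := normal_K
    have h6 : (K.subgroupOf (centralizer ({(x : A)} : Set A))).index ∣ 3 := by
      rw [← index_K]
      exact Subgroup.relIndex_dvd_index_of_normal K _
    have h7 : (K.subgroupOf (centralizer ({(x : A)} : Set A))).index ≠ 1 := by
      intro h8
      rw [Subgroup.index_eq_one, Subgroup.subgroupOf_eq_top] at h8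
      exact h5 (h8 h4)
    have h8 : (K.subgroupOf (centralizer ({(x : A)} : Set A))).index = 3 :=
      ((Nat.dvd_prime Nat.prime_three).1 h6).resolve_left h7
    have h9 := (K.subgroupOf (centralizer ({(x : A)} : Set A))).card_mul_index
    rw [h8] at h9
    have h10 : Nat.card (K.subgroupOf (centralizer ({(x : A)} : Set A))) =
        Nat.card (K ⊓ centralizer ({(x : A)} : Set A) : Subgroup A) := by
      rw [← Subgroup.inf_subgroupOf_right]
      exact Nat.card_congr (subgroupOfEquivOfLe inf_le_right).toEquiv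
    rw [h10] at h9
    omega
  · have h2 : Nat.card (centralizer ({(x : A)} : Set A)) ≤ 1944 := by
      rw [← card_cent_conj hc, ← bd4]
      exact cent_le hp
    exact hle.trans h2

/-- order 7 -/
theorem cent7 {x : K} (h7 : orderOf x = 7) : Nat.card (centralizer ({x} : Set K)) ≤ 1176 := by
  obtain ⟨p, hp, hc⟩ := classes x.2
  have ho : orderOf p.1 = 7 := by
    obtain ⟨c, hc⟩ := isConj_iff.1 hc
    have h1 : orderOf ((MulAut.conj c) p.1) = orderOf p.1 := (MulAut.conj c).orderOf_eq p.1
    rw [← h1, MulAut.conj_apply, hc, Subgroup.orderOf_coe, h7]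
  have h1 : p.1 ≠ 1 := by
    intro h
    rw [h, orderOf_one] at ho
    omega
  have hk : p.1 ^ 7 = 1 := by rw [← ho, pow_orderOf_eq_one]
  rw [card_cent_sub]
  have hle : Nat.card (K ⊓ centralizer ({(x : A)} : Set A) : Subgroup A) ≤ Nat.card (centralizer ({(x : A)} : Set A)) :=
    Subgroup.card_le_of_le inf_le_right
  have h2 : Nat.card (centralizer ({(x : A)} : Set A)) ≤ 1176 := by
    rw [← card_cent_conj hc]
    rcases of_seven hp h1 hk with rfl | rfl
    · exact (cent_le hp).trans (by rw [bd10]; norm_num)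
    · exact (cent_le hp).trans (by rw [bd11])
  exact hle.trans h2

/-- **Centralizers in `³D₄(2)`.** -/
theorem cent_td4 {F : Type*} [Field F] [Fintype F] (hF : Fintype.card F = 8) (x : ↥(Cfsg.Lie.twistedD4 F 2)) :
    (orderOf x = 3 → Nat.card (centralizer ({x} : Set ↥(Cfsg.Lie.twistedD4 F 2))) ≤ 1944) ∧
      (orderOf x = 7 → Nat.card (centralizer ({x} : Set ↥(Cfsg.Lie.twistedD4 F 2))) ≤ 1176) := by
  obtain ⟨φ⟩ := iso F hF
  have key : Nat.card (centralizer ({φ.symm x} : Set K)) = Nat.card (centralizer ({x} : Set ↥(Cfsg.Lie.twistedD4 F 2))) := by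
    refine Nat.card_congr (Equiv.subtypeEquiv φ.toEquiv fun z => ?_)
    show z ∈ centralizer ({φ.symm x} : Set K) ↔ φ z ∈ centralizer ({x} : Set ↥(Cfsg.Lie.twistedD4 F 2))
    rw [mem_centralizer_singleton_iff, mem_centralizer_singleton_iff]
    constructor
    · intro h
      have h1 := congrArg φ h
      rwa [map_mul, map_mul, φ.apply_symm_apply] at h1
    · intro h
      apply φ.injective
      rwa [map_mul, map_mul, φ.apply_symm_apply]
  rw [← key, ← MulEquiv.orderOf_eq φ.symm x]
  exact ⟨cent3, cent7⟩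

end Cfsg.Agent.H595.EPX.TD42
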